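import Cfsg.Agent.H101.PQ.Own
import Cfsg.Agent.H101.Cod.SporB

/-!
# The Baby Monster: `¬ PQ 2 q` (helper101, for S4612)

The centralizer of an involution of the class `2A` has the normal subgroup `2.²E₆(2)`.
-/

set_option autoImplicit false

open Cfsg Cfsg.Agent

namespace Cfsg.Agent.H101.PQ

open Cfsg.Agent.H317.PQ Cfsg.Agent.H358.A3 Subgroup

universe u v

theorem card_twE {K : Type} [Field K] [Fintype K] (hK : Fintype.card K = 4) :
    Nat.card (Cfsg.Lie.twistedE6 K 2) = 76532479683774853939200 := by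
  have h := Cfsg.Agent.S1066.result (K := K) (q := 2) Nat.prime_two.isPrimePow (by rw [hK]; norm_num)
  norm_num at h
  omega

theorem not_PQ_twE {K : Type} [Field K] [Fintype K] (hK : Fintype.card K = 4) {q : ℕ} (hq : q.Prime) (hq2 : q ≠ 2)
    (hqd : q ∣ 76532479683774853939200) : ¬ PQ 2 q (Cfsg.Lie.twistedE6 K 2) := by
  have hc := card_twE hK
  have hfin : Finite (Cfsg.Lie.twistedE6 K 2) := Nat.finite_of_card_ne_zero (by rw [hc]; norm_num)
  have hs : IsSimpleGroup (Cfsg.Lie.twistedE6 K 2) :=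
    (Cfsg.Agent.S1070.result (K := K) (q := 2) Nat.prime_two.isPrimePow (by rw [hK]; norm_num)).1
  have hc2 : CharP K 2 := Cfsg.Agent.H101.Cod.charP_two (k := 2) (by rw [hK]; norm_num)
  have hl : IsLieTypeChar 2 (Cfsg.Lie.twistedE6 K 2) := Or.inr (Or.inr (Or.inr (Or.inr (Or.inr (Or.inr (Or.inr (Or.inl
    ⟨K, inferInstance, inferInstance, hc2, 2, Nat.prime_two.isPrimePow, Or.inl ⟨by rw [hK]; norm_num, ⟨MulEquiv.refl _⟩⟩⟩)))))))
  exact not_PQ_own Nat.prime_two hq hq2 hl (by rw [hc]; exact hqd)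

/-- from `C(t)` to the quotient of a normal subgroup by `⟨t⟩` -/
theorem PQ_sec {G : Type u} {E : Type v} [Group G] [Group E] [Finite G] {p q : ℕ} (hp : p.Prime) (hq : q.Prime)
    (hpq : p ≠ q) (h : PQ p q G) {t : G} (ht : ∃ k : ℕ, orderOf t = p ^ k) {X : Subgroup G} (σ : ↥X →* E)
    (hcomm : ∀ m ∈ X, m * t = t * m) (hnrm : ∀ g, g * t = t * g → ∀ m ∈ X, g * m * g⁻¹ ∈ X)
    (hs : Function.Surjective σ) (hker : ∀ m : ↥X, σ m = 1 → (m : G) ∈ zpowers t) : PQ p q E := by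
  have h1 := Cfsg.Agent.H358.A3.PQ.centralizer hp hq hpq h ht
  have hle : X ≤ centralizer ({t} : Set G) := fun m hm =>
    mem_centralizer_singleton_iff.2 (hcomm m hm)
  have hN : (X.subgroupOf (centralizer ({t} : Set G))).Normal := ⟨fun m hm g => by
    rw [mem_subgroupOf] at hm ⊢
    exact hnrm g (mem_centralizer_singleton_iff.1 g.2) m hm⟩
  have h2 := Cfsg.Agent.H358.A3.PQ.normal hp hq hpq h1 (X.subgroupOf (centralizer ({t} : Set G)))
  have h3 : PQ p q X := PQ.of_equiv (subgroupOfEquivOfLe hle) h2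
  refine PQ.map_central hp hq hpq h3 σ hs ?_
  intro m hm
  rw [mem_center_iff]
  intro g
  obtain ⟨k, hk⟩ := mem_zpowers_iff.1 (hker m hm)
  apply Subtype.ext
  show (g : G) * m = m * g
  have h4 : Commute (g : G) t := hcomm g g.2
  rw [← hk]
  exact h4.zpow_right k

theorem not_PQ_baby {q : ℕ} (hq : q.Prime) (hq2 : q ≠ 2) (hqd : q ∣ 76532479683774853939200) :
    ¬ PQ 2 q Spor.BabyMonster := by
  intro h
  have hfin : Finite Spor.BabyMonster :=
    Nat.finite_of_card_ne_zero (by rw [Cfsg.Agent.S1704.result.2]; norm_num)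
  obtain ⟨K, _, _, hK, t, X₀, σ, H, -, -⟩ := CTwoTab.BInst.exists_sec
  have ho : orderOf t = 2 := orderOf_eq_prime (by rw [pow_two]; exact H.t_sq) H.t_ne
  refine not_PQ_twE hK hq hq2 hqd (PQ_sec Nat.prime_two hq hq2.symm h (t := t) ⟨1, by rw [ho, pow_one]⟩ σ H.comm H.nrm
    H.surj fun m hm => ?_)
  rcases (H.ker m).1 hm with h1 | h1
  · rw [h1]
    exact one_mem _
  · rw [h1]
    exact mem_zpowers t

/-- **`¬ PQ 2 q B`** for `q = 3, 5, 7, 11, 13, 17, 19`. -/
theorem not_PQ_two_b {S : Type u} [Group S] (h : Spor.IsoB S) {q : ℕ}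
    (hq : q = 3 ∨ q = 5 ∨ q = 7 ∨ q = 11 ∨ q = 13 ∨ q = 17 ∨ q = 19) : ¬ PQ 2 q S := by
  obtain ⟨e⟩ := h
  have hfin : Finite Spor.BabyMonster :=
    Nat.finite_of_card_ne_zero (by rw [Cfsg.Agent.S1704.result.2]; norm_num)
  have : Finite S := Finite.of_equiv _ e.symm.toEquiv
  intro hP
  have h1 : PQ 2 q Spor.BabyMonster := PQ.of_equiv e hP
  rcases hq with rfl | rfl | rfl | rfl | rfl | rfl | rfl
  all_goals
    refine not_PQ_baby (by norm_num) (by norm_num) ?_ h1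
    norm_num

theorem not_same_two_b {S : Type u} [Group S] (h : Spor.IsoB S) {q : ℕ}
    (hq : q = 3 ∨ q = 5 ∨ q = 7 ∨ q = 11 ∨ q = 13 ∨ q = 17 ∨ q = 19) : ¬ Same 2 q S := by
  have hfin : Finite Spor.BabyMonster :=
    Nat.finite_of_card_ne_zero (by rw [Cfsg.Agent.S1704.result.2]; norm_num)
  have : Finite S := Finite.of_equiv _ h.some.symm.toEquiv
  refine fun hS => not_PQ_two_b h hq (PQ.of_same ?_ hS)
  rcases hq with rfl | rfl | rfl | rfl | rfl | rfl | rfl <;> norm_num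

end Cfsg.Agent.H101.PQ
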